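import Cfsg.Agent.Forms.SpRegGen
import Mathlib.FieldTheory.Finite.Extension

/-!
`Sp_{2n}(q)`, `n ≥ 3`, is generated by a monomial element of order `4n` and the product of a
transvection with a commuting Singer element of the general linear group of two further coordinates.
-/

set_option autoImplicit false

open scoped Matrix

namespace Cfsg.Agent.Screen.TwoGen.Symp

open Cfsg.Agent.Forms Cfsg.Agent.Forms.SpRegGen

attribute [-simp] sympB_apply

variable {F : Type*} [Field F]

local notation "ω" => sympB _ F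

/-- A coordinate vector of the second half. -/
def fvec {n : ℕ} (i : Fin n) : Fin n ⊕ Fin n → F := Sum.elim 0 (Pi.single i 1)

theorem omega_vec_right {n : ℕ} (x : Fin n ⊕ Fin n → F) (i : Fin n) :
    sympB n F x (vec i) = x (Sum.inr i) := by
  obtain ⟨p, q, rfl⟩ : ∃ p q : Fin n → F, x = Sum.elim p q :=
    ⟨x ∘ Sum.inl, x ∘ Sum.inr, by funext t; cases t <;> rfl⟩
  rw [vec, omega_elim, Finset.sum_eq_single i] <;> simp +contextual

theorem omega_fvec_right {n : ℕ} (x : Fin n ⊕ Fin n → F) (i : Fin n) :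
    sympB n F x (fvec i) = -x (Sum.inl i) := by
  obtain ⟨p, q, rfl⟩ : ∃ p q : Fin n → F, x = Sum.elim p q :=
    ⟨x ∘ Sum.inl, x ∘ Sum.inr, by funext t; cases t <;> rfl⟩
  rw [fvec, omega_elim, Finset.sum_eq_single i] <;> simp +contextual

section Move

variable {n : ℕ} (H : Subgroup (Matrix.symplecticGroup (Fin n) F))

/-- The plane components from `k` on vanish. -/
def Low (k : ℕ) (x : Fin n ⊕ Fin n → F) : Prop :=
  ∀ i : Fin n, k ≤ i.val → x (Sum.inl i) = 0 ∧ x (Sum.inr i) = 0

set_option maxHeartbeats 800000 in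
theorem exists_step (hE : ∀ i : Fin n, Full H (vec i)) (hf : ∀ i : Fin n, Full H (fvec i))
    (hc : ∀ i j : Fin n, i.val + 1 = j.val → Full H (vec i + vec j))
    {i j : Fin n} (hij : i.val + 1 = j.val) {x : Fin n ⊕ Fin n → F} (hx : Low (j.val + 1) x) :
    ∃ g ∈ H, Low j.val (act g x) := by
  classical
  have hne : i ≠ j := fun h => by rw [h] at hij; omega
  by_cases hz : x (Sum.inl j) = 0 ∧ x (Sum.inr j) = 0
  · refine ⟨1, H.one_mem, fun l hl => ?_⟩
    rw [act_one]
    rcases eq_or_lt_of_le hl with h | h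
    · rw [show l = j from Fin.ext h.symm]; exact hz
    · exact hx l h
  -- the moves only touch the coordinates at `i` and `j`
  have moveE : ∀ (l : Fin n) (c : F) (y : Fin n ⊕ Fin n → F) (t : Fin n),
      act (tr (vec l) c) y (Sum.inl t) = y (Sum.inl t) + (if t = l then c * y (Sum.inr l) else 0) ∧
      act (tr (vec l) c) y (Sum.inr t) = y (Sum.inr t) := by
    intro l c y t
    rw [act_tr, omega_vec_right]
    simp [vec_inl, vec_inr, Pi.single_apply]
  have moveF : ∀ (l : Fin n) (c : F) (y : Fin n ⊕ Fin n → F) (t : Fin n),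
      act (tr (fvec l) c) y (Sum.inl t) = y (Sum.inl t) ∧
      act (tr (fvec l) c) y (Sum.inr t) = y (Sum.inr t) + (if t = l then -(c * y (Sum.inl l)) else 0) := by
    intro l c y t
    rw [act_tr, omega_fvec_right]
    simp only [fvec, Pi.add_apply, Pi.smul_apply, Sum.elim_inl, Sum.elim_inr, Pi.zero_apply, smul_zero,
      add_zero, smul_eq_mul, Pi.single_apply, true_and]
    split_ifs <;> simp
  have moveC : ∀ (c : F) (y : Fin n ⊕ Fin n → F) (t : Fin n),
      act (tr (vec i + vec j) c) y (Sum.inl t) = y (Sum.inl t) +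
        (if t = i ∨ t = j then c * (y (Sum.inr i) + y (Sum.inr j)) else 0) ∧
      act (tr (vec i + vec j) c) y (Sum.inr t) = y (Sum.inr t) := by
    intro c y t
    rw [act_tr, map_add, omega_vec_right, omega_vec_right]
    refine ⟨?_, by simp [vec_inr]⟩
    simp only [Pi.add_apply, Pi.smul_apply, vec_inl, smul_eq_mul, Pi.single_apply]
    rcases eq_or_ne t i with h | h
    · subst h; simp [hne]
    · simp [h]
  -- make the second coordinate at `j` nonzero
  obtain ⟨g₁, hg₁, hx₁, hq₁⟩ : ∃ g ∈ H, Low (j.val + 1) (act g x) ∧ act g x (Sum.inr j) ≠ 0 := by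
    by_cases hq : x (Sum.inr j) = 0
    · have hp : x (Sum.inl j) ≠ 0 := fun h => hz ⟨h, hq⟩
      refine ⟨_, hf j 1, fun l hl => ?_, ?_⟩
      · have hlj : l ≠ j := fun h => by rw [h] at hl; omega
        rw [(moveF j 1 x l).1, (moveF j 1 x l).2, if_neg hlj, add_zero]
        exact hx l hl
      · rw [(moveF j 1 x j).2, if_pos rfl, hq, zero_add, one_mul]
        exact neg_ne_zero.2 hp
    · exact ⟨1, H.one_mem, by rw [act_one]; exact hx, by rwa [act_one]⟩
  set y := act g₁ x with hy
  -- make the second coordinate at `i` nonzero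
  obtain ⟨g₂, hg₂, hx₂, hq₂, hqi⟩ : ∃ g ∈ H, Low (j.val + 1) (act g y) ∧ act g y (Sum.inr j) ≠ 0 ∧
      act g y (Sum.inr i) ≠ 0 := by
    by_cases hq : y (Sum.inr i) = 0
    · obtain ⟨g, hg, hlow, hj', hqi', hp'⟩ : ∃ g ∈ H, Low (j.val + 1) (act g y) ∧
          act g y (Sum.inr j) ≠ 0 ∧ act g y (Sum.inr i) = 0 ∧ act g y (Sum.inl i) ≠ 0 := by
        by_cases hp : y (Sum.inl i) = 0
        · refine ⟨_, hc i j hij 1, fun l hl => ?_, ?_, ?_, ?_⟩
          · have hli : ¬ (l = i ∨ l = j) := by
              rintro (h | h) <;> subst h <;> omega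
            rw [(moveC 1 y l).1, (moveC 1 y l).2, if_neg hli, add_zero]
            exact hx₁ l hl
          · rw [(moveC 1 y j).2]; exact hq₁
          · rw [(moveC 1 y i).2]; exact hq
          · rw [(moveC 1 y i).1, if_pos (Or.inl rfl), hp, hq, zero_add, zero_add, one_mul]
            exact hq₁
        · exact ⟨1, H.one_mem, by rw [act_one]; exact hx₁, by rwa [act_one], by rwa [act_one],
            by rwa [act_one]⟩
      refine ⟨_, H.mul_mem (hf i 1) hg, fun l hl => ?_, ?_, ?_⟩
      · have hli : l ≠ i := fun h => by subst h; omega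
        rw [act_mul, (moveF i 1 _ l).1, (moveF i 1 _ l).2, if_neg hli, add_zero]
        exact hlow l hl
      · rw [act_mul, (moveF i 1 _ j).2, if_neg hne.symm, add_zero]; exact hj'
      · rw [act_mul, (moveF i 1 _ i).2, if_pos rfl, hqi', zero_add, one_mul]
        exact neg_ne_zero.2 hp'
    · exact ⟨1, H.one_mem, by rw [act_one]; exact hx₁, by rwa [act_one], by rwa [act_one]⟩
  set z := act g₂ y with hz'
  set w := act (tr (vec j) ((1 - z (Sum.inl j)) / z (Sum.inr j))) z with hw
  have hwp : w (Sum.inl j) = 1 := by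
    rw [hw, (moveE j _ z j).1, if_pos rfl, div_mul_cancel₀ _ hq₂, add_sub_cancel]
  set v := act (tr (fvec j) (w (Sum.inr j))) w with hv
  have hvq : v (Sum.inr j) = 0 := by
    rw [hv, (moveF j _ w j).2, if_pos rfl, hwp, mul_one, add_neg_cancel]
  have hvp : v (Sum.inl j) = 1 := by rw [hv, (moveF j _ w j).1, hwp]
  have hvi : v (Sum.inr i) ≠ 0 := by
    rw [hv, (moveF j _ w i).2, if_neg hne, add_zero, hw, (moveE j _ z i).2]; exact hqi
  refine ⟨tr (vec i + vec j) (-(1 / v (Sum.inr i))) *
      (tr (fvec j) (w (Sum.inr j)) * (tr (vec j) ((1 - z (Sum.inl j)) / z (Sum.inr j)) * (g₂ * g₁))),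
    H.mul_mem (hc i j hij _) (H.mul_mem (hf j _) (H.mul_mem (hE j _) (H.mul_mem hg₂ hg₁))),
    fun l hl => ?_⟩
  rw [act_mul, act_mul, act_mul, act_mul, ← hy, ← hz', ← hw, ← hv, (moveC _ v l).1, (moveC _ v l).2]
  rcases eq_or_lt_of_le hl with h | h
  · rw [show l = j from Fin.ext h.symm, if_pos (Or.inr rfl), hvp, hvq, add_zero, neg_mul,
      one_div_mul_cancel hvi, add_neg_cancel]
    exact ⟨rfl, rfl⟩
  · have hlj : l ≠ j := fun e => by subst e; omega
    have hli : ¬ (l = i ∨ l = j) := by rintro (e | e) <;> subst e <;> omega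
    rw [if_neg hli, add_zero, hv, (moveF j _ w l).1, (moveF j _ w l).2, if_neg hlj, add_zero, hw,
      (moveE j _ z l).1, (moveE j _ z l).2, if_neg hlj, add_zero]
    exact hx₂ l h

theorem eq_top_of_chain (hn : 0 < n) (hE : ∀ i : Fin n, Full H (vec i))
    (hf : ∀ i : Fin n, Full H (fvec i))
    (hc : ∀ i j : Fin n, i.val + 1 = j.val → Full H (vec i + vec j)) : H = ⊤ := by
  classical
  refine eq_top_of_full fun x => ?_
  by_cases hx : x = 0
  · subst hx
    intro c
    rw [show tr (0 : Fin n ⊕ Fin n → F) c = 1 from ext_act fun y => by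
      rw [act_tr, act_one, smul_zero, add_zero]]
    exact H.one_mem
  suffices h : ∃ g ∈ H, act g x = vec ⟨0, hn⟩ by
    obtain ⟨g, hg, hgx⟩ := h
    have := (hE ⟨0, hn⟩).conj (H.inv_mem hg)
    rwa [← hgx, act_inv_act] at this
  obtain ⟨g, hg, hlow⟩ : ∃ g ∈ H, Low 1 (act g x) := by
    have key : ∀ k, k < n → ∀ y : Fin n ⊕ Fin n → F, Low (k + 1) y → ∃ g ∈ H, Low 1 (act g y) := by
      intro k
      induction k with
      | zero => exact fun _ y hy => ⟨1, H.one_mem, by rw [act_one]; exact hy⟩
      | succ k ih =>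
        intro hk y hy
        obtain ⟨g, hg, hlow⟩ := exists_step H hE hf hc (i := ⟨k, by omega⟩) (j := ⟨k + 1, hk⟩) rfl hy
        obtain ⟨g', hg', hlow'⟩ := ih (by omega) _ hlow
        exact ⟨g' * g, H.mul_mem hg' hg, by rwa [act_mul]⟩
    exact key (n - 1) (by omega) x fun l hl => absurd l.isLt (by omega)
  set y := act g x with hy
  set o : Fin n := ⟨0, hn⟩
  have hy0 : y ≠ 0 := fun h => hx (by rw [← act_inv_act g x, ← hy, h]; exact Matrix.mulVec_zero _)
  obtain ⟨g', hg', hlow', hq⟩ : ∃ g' ∈ H, Low 1 (act g' y) ∧ act g' y (Sum.inr o) ≠ 0 := by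
    by_cases hq : y (Sum.inr o) = 0
    · have hp : y (Sum.inl o) ≠ 0 := fun hp => hy0 (funext fun t => by
        rcases t with t | t <;> by_cases ht : t = o
        · subst ht; exact hp
        · exact (hlow t (Nat.one_le_iff_ne_zero.2 fun e => ht (Fin.ext e))).1
        · subst ht; exact hq
        · exact (hlow t (Nat.one_le_iff_ne_zero.2 fun e => ht (Fin.ext e))).2)
      refine ⟨_, hf o 1, fun l hl => ?_, ?_⟩
      · have hlo : l ≠ o := fun e => by subst e; simp [o] at hl
        rw [act_tr, omega_fvec_right]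
        simp [fvec, hlo, hlow l hl]
      · rw [act_tr, omega_fvec_right]
        simp [fvec, hq, hp]
    · exact ⟨1, H.one_mem, by rw [act_one]; exact hlow, by rwa [act_one]⟩
  set z := act g' y with hz
  refine ⟨tr (fvec o) (z (Sum.inr o)) * (tr (vec o) ((1 - z (Sum.inl o)) / z (Sum.inr o)) * (g' * g)),
    H.mul_mem (hf o _) (H.mul_mem (hE o _) (H.mul_mem hg' hg)), ?_⟩
  rw [act_mul, act_mul, act_mul, ← hy, ← hz, act_tr, omega_fvec_right, act_tr, omega_vec_right]
  funext t
  rcases t with t | t <;> by_cases ht : t = o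
  · subst ht; simp [fvec, vec_inl, div_mul_cancel₀ _ hq]
  · simp [fvec, vec_inl, ht, (hlow' t (Nat.one_le_iff_ne_zero.2 fun e => ht (Fin.ext e))).1]
  · subst ht; simp [fvec, vec_inl, vec_inr, div_mul_cancel₀ _ hq]
  · simp [fvec, vec_inr, ht, (hlow' t (Nat.one_le_iff_ne_zero.2 fun e => ht (Fin.ext e))).2]

end Move

/-- The signed cycle on the coordinate vectors. -/
def cycleLin (F : Type*) [Field F] (k : ℕ) :
    (Fin (k + 1) ⊕ Fin (k + 1) → F) →ₗ[F] (Fin (k + 1) ⊕ Fin (k + 1) → F) where
  toFun x := Sum.elim (Fin.cons (-x (Sum.inr (Fin.last k))) fun i => x (Sum.inl i.castSucc))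
    (Fin.cons (x (Sum.inl (Fin.last k))) fun i => x (Sum.inr i.castSucc))
  map_add' x y := by
    funext t; rcases t with t | t <;> refine Fin.cases ?_ (fun i => ?_) t <;> simp [add_comm]
  map_smul' c x := by
    funext t; rcases t with t | t <;> refine Fin.cases ?_ (fun i => ?_) t <;> simp

theorem exists_cycle (k : ℕ) : ∃ w : Matrix.symplecticGroup (Fin (k + 1)) F,
    (∀ i : Fin k, act w (vec i.castSucc) = vec i.succ) ∧ act w (vec (Fin.last k)) = fvec 0 ∧
    ∀ i : Fin k, act w (fvec i.castSucc) = fvec i.succ := by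
  classical
  refine ⟨⟨LinearMap.toMatrix' (cycleLin F k), mem_symplectic_iff.2 fun x y => ?_⟩, ?_, ?_, ?_⟩
  · rw [LinearMap.toMatrix'_mulVec, LinearMap.toMatrix'_mulVec, sympForm_eq, sympForm_eq,
      Fin.sum_univ_succ, Fin.sum_univ_castSucc (n := k)]
    simp only [cycleLin, LinearMap.coe_mk, AddHom.coe_mk, Sum.elim_inl, Sum.elim_inr, Fin.cons_zero,
      Fin.cons_succ]
    ring
  · intro i
    rw [act, LinearMap.toMatrix'_mulVec]
    funext t
    rcases t with t | t <;> refine Fin.cases ?_ (fun l => ?_) t <;>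
      simp [cycleLin, vec, Pi.single_apply, Fin.castSucc_ne_last, (Fin.succ_ne_zero _).symm,
        (Fin.castSucc_ne_last _).symm]
  · rw [act, LinearMap.toMatrix'_mulVec]
    funext t
    rcases t with t | t <;> refine Fin.cases ?_ (fun l => ?_) t <;>
      simp [cycleLin, vec, fvec, Pi.single_apply, Fin.castSucc_ne_last, Fin.succ_ne_zero]
  · intro i
    rw [act, LinearMap.toMatrix'_mulVec]
    funext t
    rcases t with t | t <;> refine Fin.cases ?_ (fun l => ?_) t <;>
      simp [cycleLin, fvec, Pi.single_apply, Fin.castSucc_ne_last, (Fin.succ_ne_zero _).symm,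
        (Fin.castSucc_ne_last _).symm]

section Singer

variable {K : Type*} [Field K] [Algebra F K] (b : Module.Basis (Fin 2) F K) {n : ℕ}

/-- Multiplication by an element of a quadratic extension on the first two coordinates. -/
noncomputable def singerLin (hn : 2 ≤ n) (c : K) : (Fin n → F) →ₗ[F] (Fin n → F) where
  toFun p i := if h : i.val < 2 then
      b.equivFun (c * b.equivFun.symm fun j => p ⟨j.val, lt_of_lt_of_le j.isLt hn⟩) ⟨i.val, h⟩
    else p i
  map_add' p q := by
    funext i
    simp only [Pi.add_apply]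
    split_ifs with h
    · rw [show (fun j : Fin 2 => p ⟨j.val, lt_of_lt_of_le j.isLt hn⟩ + q ⟨j.val, lt_of_lt_of_le j.isLt hn⟩) =
        (fun j : Fin 2 => p ⟨j.val, lt_of_lt_of_le j.isLt hn⟩) +
        (fun j : Fin 2 => q ⟨j.val, lt_of_lt_of_le j.isLt hn⟩) from rfl, map_add, mul_add, map_add,
        Pi.add_apply]
    · rfl
  map_smul' r p := by
    funext i
    simp only [Pi.smul_apply, RingHom.id_apply]
    split_ifs with h
    · rw [show (fun j : Fin 2 => r • p ⟨j.val, lt_of_lt_of_le j.isLt hn⟩) =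
        r • (fun j : Fin 2 => p ⟨j.val, lt_of_lt_of_le j.isLt hn⟩) from rfl, map_smul, mul_smul_comm,
        map_smul, Pi.smul_apply]
    · rfl

theorem singerLin_comp (hn : 2 ≤ n) (c d : K) :
    singerLin b hn c ∘ₗ singerLin b hn d = singerLin b hn (c * d) := by
  refine LinearMap.ext fun p => funext fun i => ?_
  simp only [LinearMap.comp_apply, singerLin, LinearMap.coe_mk, AddHom.coe_mk]
  split_ifs with h
  · rw [show (fun j : Fin 2 => if h' : (j : ℕ) < 2 then
        b.equivFun (d * b.equivFun.symm fun l => p ⟨l.val, lt_of_lt_of_le l.isLt hn⟩) ⟨j.val, h'⟩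
        else p ⟨j.val, lt_of_lt_of_le j.isLt hn⟩) =
      b.equivFun (d * b.equivFun.symm fun l => p ⟨l.val, lt_of_lt_of_le l.isLt hn⟩) from
      funext fun j => dif_pos j.isLt, LinearEquiv.symm_apply_apply, mul_assoc]
  · rfl

theorem singerLin_one (hn : 2 ≤ n) : singerLin b hn 1 = LinearMap.id := by
  refine LinearMap.ext fun p => funext fun i => ?_
  simp only [singerLin, LinearMap.coe_mk, AddHom.coe_mk, LinearMap.id_apply]
  split_ifs with h
  · rw [one_mul, LinearEquiv.apply_symm_apply]
  · rfl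

theorem singerLin_first (hn : 2 ≤ n) (c : K) (v : Fin 2 → F) (hv : c * b 0 = b.equivFun.symm v) :
    singerLin b hn c (Pi.single ⟨0, by omega⟩ 1) =
      fun i : Fin n => if h : i.val < 2 then v ⟨i.val, h⟩ else 0 := by
  funext i
  simp only [singerLin, LinearMap.coe_mk, AddHom.coe_mk]
  split_ifs with h
  · rw [show (fun j : Fin 2 => (Pi.single (⟨0, by omega⟩ : Fin n) (1 : F) : Fin n → F)
        ⟨j.val, lt_of_lt_of_le j.isLt hn⟩) = Pi.single 0 1 from funext fun j => by
      rw [Pi.single_apply, Pi.single_apply]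
      exact if_congr ⟨fun e => Fin.ext (congrArg Fin.val e :), fun e => by subst e; rfl⟩ rfl rfl,
      show b.equivFun.symm (Pi.single 0 1) = b 0 by
        rw [Module.Basis.equivFun_symm_apply, Finset.sum_eq_single 0
          (fun j _ hj => by rw [Pi.single_eq_of_ne hj, zero_smul]) (by simp), Pi.single_eq_same, one_smul],
      hv, LinearEquiv.apply_symm_apply]
  · exact Pi.single_eq_of_ne (fun e => h (by rw [e]; exact Nat.two_pos)) _

theorem singerLin_fix (hn : 2 ≤ n) (c : K) (l : Fin n) (hl : 2 ≤ l.val) :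
    singerLin b hn c (Pi.single l 1) = Pi.single l 1 := by
  funext i
  simp only [singerLin, LinearMap.coe_mk, AddHom.coe_mk]
  split_ifs with h
  · rw [show (fun j : Fin 2 => (Pi.single l (1 : F) : Fin n → F) ⟨j.val, lt_of_lt_of_le j.isLt hn⟩) = 0 from
      funext fun j => Pi.single_eq_of_ne (fun e => by
        have := congrArg Fin.val e
        simp only at this
        have := j.isLt
        omega) _,
      map_zero, mul_zero, map_zero, Pi.zero_apply, Pi.single_eq_of_ne]
    intro e; rw [e] at h; omega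
  · rfl

end Singer

theorem exists_two_generators [Fintype F] (k : ℕ) :
    ∃ a b : Matrix.symplecticGroup (Fin (k + 3)) F,
      Subgroup.closure ({a, b} : Set (Matrix.symplecticGroup (Fin (k + 3)) F)) = ⊤ := by
  classical
  obtain ⟨p, hp⟩ := CharP.exists F
  haveI := hp
  haveI hpf : Fact p.Prime := ⟨CharP.char_is_prime F p⟩
  let K := FiniteField.Extension F p 2
  haveI : Finite K := Module.finite_of_finite F
  let b : Module.Basis (Fin 2) F K :=
    Module.finBasisOfFinrankEq F K (FiniteField.finrank_extension F p 2)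
  obtain ⟨κ, hκ⟩ := IsCyclic.exists_generator (α := Kˣ)
  have hn : 2 ≤ k + 3 := by omega
  have hPQ : ∀ c : Kˣ, LinearMap.toMatrix' (singerLin b hn (c : K)) *
      LinearMap.toMatrix' (singerLin b hn ((c⁻¹ : Kˣ) : K)) = 1 := fun c => by
    rw [← LinearMap.toMatrix'_comp, singerLin_comp, Units.mul_inv, singerLin_one, LinearMap.toMatrix'_id]
  let Φ : Kˣ → Matrix.symplecticGroup (Fin (k + 3)) F := fun c => levi _ _ (hPQ c)
  have hΦvec : ∀ (c : Kˣ) (i : Fin (k + 3)),
      act (Φ c) (vec i) = Sum.elim (singerLin b hn (c : K) (Pi.single i 1)) 0 := fun c i => by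
    rw [vec, act_levi, LinearMap.toMatrix'_mulVec, Matrix.mulVec_zero]
  have hΦmul : ∀ c d : Kˣ, Φ c * Φ d = Φ (c * d) := by
    intro c d
    refine Subtype.ext ?_
    change Matrix.fromBlocks _ 0 0 _ * Matrix.fromBlocks _ 0 0 _ = Matrix.fromBlocks _ 0 0 _
    rw [Matrix.fromBlocks_multiply]
    simp only [Matrix.zero_mul, Matrix.mul_zero, add_zero, zero_add]
    rw [← Matrix.transpose_mul, ← LinearMap.toMatrix'_comp,
      ← LinearMap.toMatrix'_comp, singerLin_comp, singerLin_comp, ← Units.val_mul, ← Units.val_mul,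
      _root_.mul_inv_rev]
  have hΦone : Φ 1 = 1 := by
    refine Subtype.ext ?_
    change Matrix.fromBlocks _ 0 0 _ = 1
    rw [inv_one, Units.val_one, singerLin_one, LinearMap.toMatrix'_id, Matrix.transpose_one,
      Matrix.fromBlocks_one]
  set h := Φ κ with hh
  have hΦpow : ∀ j : ℕ, h ^ j = Φ (κ ^ j) := by
    intro j
    induction j with
    | zero => rw [pow_zero, pow_zero, hΦone]
    | succ j ih => rw [pow_succ, pow_succ, ih, hΦmul]
  obtain ⟨w, hwe, hwl, hwf⟩ := exists_cycle (F := F) (k + 2)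
  let i₂ : Fin (k + 3) := ⟨2, by omega⟩
  set x := tr (vec i₂) (1 : F) with hx
  have hcomm : Commute h x := by
    have : h * x * h⁻¹ = x := by
      rw [hx, tr_conj, hh, hΦvec, singerLin_fix b hn _ i₂ le_rfl]
      rfl
    exact (mul_inv_eq_iff_eq_mul.1 this)
  refine ⟨h * x, w, ?_⟩
  set H := Subgroup.closure ({h * x, w} : Set (Matrix.symplecticGroup (Fin (k + 3)) F))
  have ha : h * x ∈ H := Subgroup.subset_closure (Set.mem_insert _ _)
  have hw : w ∈ H := Subgroup.subset_closure (Set.mem_insert_of_mem _ rfl)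
  have hxp : x ^ p = 1 := by
    have hpow : ∀ j : ℕ, x ^ j = tr (vec i₂) (j : F) := by
      intro j
      induction j with
      | zero => rw [pow_zero, Nat.cast_zero, tr_zero]
      | succ j ih => rw [pow_succ, ih, hx, tr_add, Nat.cast_succ]
    rw [hpow, CharP.cast_eq_zero, tr_zero]
  have hhK : h ^ Nat.card Kˣ = 1 := by rw [hΦpow, pow_card_eq_one', hΦone]
  have hcop : Nat.Coprime p (Nat.card Kˣ) := by
    rw [Nat.card_units, Module.natCard_eq_pow_finrank (K := F), FiniteField.finrank_extension,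
      Nat.card_eq_fintype_card]
    obtain ⟨e, -, he⟩ := FiniteField.card F p
    refine (hpf.out.coprime_iff_not_dvd).2 fun hd => ?_
    have h1 : p ∣ Fintype.card F ^ 2 := by rw [he, ← pow_mul]; exact dvd_pow_self _ (by positivity)
    have h2 : 0 < Fintype.card F ^ 2 := pow_pos Fintype.card_pos _
    have := Nat.dvd_sub h1 hd
    rw [Nat.sub_sub_self h2] at this
    exact hpf.out.not_dvd_one this
  have hhH : h ∈ H := by
    have h1 : h ^ p ∈ H := by
      have := H.pow_mem ha p
      rwa [hcomm.mul_pow, hxp, mul_one] at this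
    have h2 : (h ^ p) ^ (Nat.gcdA p (Nat.card Kˣ)) = h := by
      have hg := Nat.gcd_eq_gcd_ab p (Nat.card Kˣ)
      rw [hcop, Nat.cast_one] at hg
      rw [← zpow_natCast h p, ← zpow_mul]
      conv_rhs => rw [← zpow_one h, hg, zpow_add, zpow_mul h (Nat.card Kˣ : ℤ), zpow_natCast, hhK,
        one_zpow, mul_one]
    exact h2 ▸ H.zpow_mem h1 _
  have hxH : x ∈ H := by
    have := H.mul_mem (H.inv_mem hhH) ha
    rwa [inv_mul_cancel_left] at this
  have hΦH : ∀ c : Kˣ, Φ c ∈ H := by
    intro c
    obtain ⟨j, hj⟩ := (isOfFinOrder_of_finite κ).mem_powers_iff_mem_zpowers.2 (hκ c)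
    rw [← hj, ← hΦpow]
    exact H.pow_mem hhH j
  let o : Fin (k + 3) := ⟨0, by omega⟩
  have hx0 : tr (vec o) (1 : F) ∈ H := by
    have e1 : act w (vec o) = vec (⟨1, by omega⟩ : Fin (k + 3)) := hwe ⟨0, by omega⟩
    have e2 : act w (vec (⟨1, by omega⟩ : Fin (k + 3))) = vec i₂ := hwe ⟨1, by omega⟩
    have := H.mul_mem (H.mul_mem (H.inv_mem (H.pow_mem hw 2)) hxH) (H.inv_mem (H.inv_mem (H.pow_mem hw 2)))
    rwa [hx, tr_conj, show act (w ^ 2)⁻¹ (vec i₂) = vec o by
      rw [← e2, ← e1, ← act_mul w w, ← sq, act_inv_act]] at this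
  have hfull0 : Full H (vec o) := by
    obtain ⟨γ, hγ⟩ := IsCyclic.exists_generator (α := Fˣ)
    let L : AddSubgroup F :=
      { carrier := {c | tr (vec o) c ∈ H}
        add_mem' := fun hc hd => by
          simp only [Set.mem_setOf_eq] at hc hd ⊢; rw [← tr_add]; exact H.mul_mem hc hd
        zero_mem' := by simp [tr_zero, H.one_mem]
        neg_mem' := fun hc => by
          simp only [Set.mem_setOf_eq] at hc ⊢; rw [← tr_inv]; exact H.inv_mem hc }
    refine fun c => addSubgroup_full L hγ (show (1 : F) ∈ L from hx0) one_ne_zero (fun d hd => ?_) c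
    let g : Kˣ := Units.mk0 (algebraMap F K (γ : F)) ((map_ne_zero _).2 γ.ne_zero)
    have hg : act (Φ g) (vec o) = (γ : F) • vec o := by
      rw [hΦvec, singerLin_first b hn _ (Pi.single 0 (γ : F)) ?_]
      · funext t
        rcases t with t | t
        · rw [Sum.elim_inl, Pi.smul_apply, vec_inl, smul_eq_mul]
          by_cases ht : t = o
          · subst ht
            rw [dif_pos (show o.val < 2 from Nat.two_pos), Pi.single_eq_same (M := fun _ => F), mul_one]
            exact Pi.single_eq_same (M := fun _ => F) _ _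
          · rw [Pi.single_eq_of_ne (M := fun _ => F) ht, mul_zero]
            split_ifs with h2
            · exact Pi.single_eq_of_ne (M := fun _ => F) (i := (0 : Fin 2)) (i' := ⟨t.val, h2⟩) (fun e => ht (Fin.ext (congrArg Fin.val e :))) _
            · rfl
        · simp [vec_inr]
      · rw [Module.Basis.equivFun_symm_apply, Finset.sum_eq_single 0
          (fun j _ hj => by rw [Pi.single_eq_of_ne hj, zero_smul]) (by simp), Pi.single_eq_same,
          Algebra.smul_def]
        rfl
    have := H.mul_mem (H.mul_mem (hΦH g) hd) (H.inv_mem (hΦH g))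
    rw [tr_conj, hg, tr_smul, mul_comm] at this
    exact this
  have hE : ∀ i : Fin (k + 3), Full H (vec i) := by
    intro i
    induction i using Fin.induction with
    | zero => exact hfull0
    | succ i ih => rw [← hwe i]; exact ih.conj hw
  have hf : ∀ i : Fin (k + 3), Full H (fvec i) := by
    intro i
    induction i using Fin.induction with
    | zero => rw [← hwl]; exact (hE _).conj hw
    | succ i ih => rw [← hwf i]; exact ih.conj hw
  have hc01 : Full H (vec o + vec (⟨1, by omega⟩ : Fin (k + 3))) := by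
    have hne : b 0 + b 1 ≠ 0 := fun e => by
      have := congrArg (fun z => b.equivFun z 0) e
      simp at this
    let g : Kˣ := Units.mk0 ((b 0 + b 1) / b 0) (div_ne_zero hne (b.ne_zero 0))
    have hg : act (Φ g) (vec o) = vec o + vec (⟨1, by omega⟩ : Fin (k + 3)) := by
      rw [hΦvec, singerLin_first b hn _ (fun _ => 1) ?_]
      · funext t
        rcases t with t | t
        · by_cases ht : t.val < 2
          · simp only [Sum.elim_inl, dif_pos ht, Pi.add_apply, vec_inl, Pi.single_apply, Fin.ext_iff, o]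
            split_ifs <;> first | omega | simp
          · simp only [Sum.elim_inl, dif_neg ht, Pi.add_apply, vec_inl, Pi.single_apply, Fin.ext_iff, o]
            rw [if_neg (by omega), if_neg (by omega), add_zero]
        · simp [vec_inr]
      · simp [g, div_mul_cancel₀ _ (b.ne_zero 0), Fin.sum_univ_two]
    rw [← hg]
    exact hfull0.conj (hΦH g)
  refine eq_top_of_chain H (by omega) hE hf fun i j hij => ?_
  have hchain : ∀ (l : ℕ) (hl : l + 1 < k + 3),
      Full H (vec (⟨l, by omega⟩ : Fin (k + 3)) + vec (⟨l + 1, hl⟩ : Fin (k + 3))) := by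
    intro l
    induction l with
    | zero => exact fun _ => hc01
    | succ l ih =>
      intro hl
      have h := (ih (by omega)).conj hw
      rw [act_add] at h
      rwa [show act w (vec (⟨l, by omega⟩ : Fin (k + 3))) = vec ⟨l + 1, by omega⟩ from hwe ⟨l, by omega⟩,
        show act w (vec (⟨l + 1, by omega⟩ : Fin (k + 3))) = vec ⟨l + 1 + 1, hl⟩ from
          hwe ⟨l + 1, by omega⟩] at h
  obtain ⟨i, hi⟩ := i
  obtain ⟨j, hj⟩ := j
  simp only at hij
  subst hij
  exact hchain i hj

end Cfsg.Agent.Screen.TwoGen.Symp
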